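import Cfsg.Agent.H56.Exc.Big

/-!
# S3691, box A: big primes of alternating groups and of `PSL₂(l)` (helper427)

* `alt_aut` : `Big S r N e`, `S ≅ A_m`, `r ∣ |S|`: `r - 1 ∣ 2 e`;
* `psl_aut` : `Big S l N e`, `S ≅ PSL₂(l)`: `l - 1 ∣ 2 e`.
-/

set_option autoImplicit false

namespace Cfsg.Agent.H427.Rg

open Cfsg.Agent.H56.Exc Subgroup
open scoped MatrixGroups

/-- conjugation by a power -/
theorem conj_pow_pow {G : Type*} [Group G] {x y : G} {b : ℕ} (h : y * x * y⁻¹ = x ^ b) (e : ℕ) :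
    y ^ e * x * (y ^ e)⁻¹ = x ^ b ^ e := by
  induction e with
  | zero => simp
  | succ e ih =>
    have h1 : y ^ (e + 1) * x * (y ^ (e + 1))⁻¹ = y * (y ^ e * x * (y ^ e)⁻¹) * y⁻¹ := by
      rw [pow_succ']
      group
    rw [h1, ih, ← conj_pow, h, ← pow_mul, pow_succ']

theorem zmod_pow_eq_one {G : Type*} [Group G] {x y : G} {b r : ℕ} (h : y * x * y⁻¹ = x ^ b) {e : ℕ}
    (hx : orderOf x = r) (hc : Commute (y ^ e) x) : (b : ZMod r) ^ e = 1 := by
  have h1 := conj_pow_pow h e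
  rw [hc.eq, mul_inv_cancel_right] at h1
  have h2 : b ^ e ≡ 1 [MOD r] := by
    rw [← hx, ← pow_eq_pow_iff_modEq, pow_one]
    exact h1.symm
  have h3 := (ZMod.natCast_eq_natCast_iff _ _ _).2 h2
  push_cast at h3
  exact h3

/-- a primitive root -/
theorem exists_root {r : ℕ} (hr : r.Prime) : ∃ a : ℕ, Nat.Coprime a r ∧ ∀ k : ℕ, (a : ZMod r) ^ k = 1 → r - 1 ∣ k := by
  have := Fact.mk hr
  obtain ⟨u, hu⟩ := IsCyclic.exists_ofOrder_eq_natCard (α := (ZMod r)ˣ)
  have h1 : orderOf u = r - 1 := by rw [hu, Nat.card_eq_fintype_card, ZMod.card_units]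
  refine ⟨(u : ZMod r).val, ZMod.val_coe_unit_coprime u, fun k hk => ?_⟩
  rw [ZMod.natCast_zmod_val] at hk
  rw [← h1]
  apply orderOf_dvd_of_pow_eq_one
  apply Units.ext
  rw [Units.val_pow_eq_pow_val, hk, Units.val_one]

/-- **alternating groups** -/
theorem alt_aut {S : Type*} [Group S] [Finite S] {m r N e : ℕ} (h : Big S r N e) (Φ : S ≃* alternatingGroup (Fin m))
    (h5 : 5 ≤ r) (hd : r ∣ Nat.card S) : r - 1 ∣ 2 * e := by
  have hr := h.prime
  have := Fact.mk hr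
  obtain ⟨x₀, hx₀⟩ := exists_prime_orderOf_dvd_card' r hd
  obtain ⟨a, ha, hroot⟩ := exists_root hr
  have hxo : orderOf ((Φ x₀ : alternatingGroup (Fin m)) : Equiv.Perm (Fin m)) = r := by
    rw [Subgroup.orderOf_coe, MulEquiv.orderOf_eq, hx₀]
  set x : Equiv.Perm (Fin m) := ((Φ x₀ : alternatingGroup (Fin m)) : Equiv.Perm (Fin m)) with hx
  have hxa : orderOf (x ^ a) = r := by
    rw [orderOf_pow' x (by
      rintro rfl
      rw [Nat.coprime_zero_left] at ha
      omega), hxo, Nat.Coprime.gcd_eq_one ha.symm, Nat.div_one]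
  have hct : (x ^ a).cycleType = x.cycleType := by
    obtain ⟨n₁, h1⟩ := Equiv.Perm.cycleType_prime_order (σ := x) (by rw [hxo]; exact hr)
    obtain ⟨n₂, h2⟩ := Equiv.Perm.cycleType_prime_order (σ := x ^ a) (by rw [hxa]; exact hr)
    rw [hxo] at h1
    rw [hxa] at h2
    have h3 : (x ^ a).support = x.support := Equiv.Perm.support_pow_coprime (by rw [hxo]; exact ha)
    have h4 := Equiv.Perm.sum_cycleType x
    have h5' := Equiv.Perm.sum_cycleType (x ^ a)
    rw [h3, ← h4, h1, h2, Multiset.sum_replicate, Multiset.sum_replicate, smul_eq_mul, smul_eq_mul] at h5'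
    have h6 := Nat.eq_of_mul_eq_mul_right hr.pos h5'
    rw [h1, h2, h6]
  obtain ⟨σ, hσ⟩ := isConj_iff.1 (Equiv.Perm.isConj_iff_cycleType_eq.2 hct.symm)
  have hy : σ * σ ∈ alternatingGroup (Fin m) := by
    rw [Equiv.Perm.mem_alternatingGroup, map_mul]
    exact Int.units_mul_self _
  set y₀ : S := Φ.symm ⟨σ * σ, hy⟩ with hy₀
  have hc : y₀ * x₀ * y₀⁻¹ = x₀ ^ (a ^ 2) := by
    apply Φ.injective
    rw [map_mul, map_mul, map_inv, map_pow, hy₀, MulEquiv.apply_symm_apply]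
    apply Subtype.ext
    rw [Subgroup.coe_mul, Subgroup.coe_mul, Subgroup.coe_inv, Subgroup.coe_pow]
    change σ * σ * x * (σ * σ)⁻¹ = x ^ (a ^ 2)
    have h1 := conj_pow_pow hσ 2
    rwa [pow_two σ] at h1
  have hcomm := h.aut x₀ y₀ hx₀ (by rw [hc]; exact npow_mem_zpowers x₀ _)
  have h1 := zmod_pow_eq_one hc hx₀ hcomm
  apply hroot
  rw [pow_mul]
  push_cast at h1
  exact h1

/-- **`PSL₂(l)`** -/
theorem psl_aut {S : Type*} [Group S] [Finite S] {l N e : ℕ} (hl : l.Prime) (h5 : 5 ≤ l) {F : Type} [Field F]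
    [Fintype F] (hF : Fintype.card F = l) (Φ : S ≃* Matrix.ProjectiveSpecialLinearGroup (Fin 2) F) (h : Big S l N e) :
    l - 1 ∣ 2 * e := by
  classical
  have := Fact.mk hl
  obtain ⟨a, ha⟩ := IsCyclic.exists_ofOrder_eq_natCard (α := Fˣ)
  have hao : orderOf a = l - 1 := by rw [ha, Nat.card_units, Nat.card_eq_fintype_card, hF]
  let X : F → SL(2, F) := fun t => ⟨!![1, t; 0, 1], by simp⟩
  let Y : SL(2, F) := ⟨!![(a : F), 0; 0, ((a⁻¹ : Fˣ) : F)], by simp⟩
  have hXX : ∀ s t, X s * X t = X (s + t) := by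
    intro s t
    apply Subtype.ext
    change !![1, s; 0, 1] * !![1, t; 0, 1] = !![1, s + t; 0, 1]
    rw [Matrix.mul_fin_two]
    simp [add_comm]
  have hX0 : X 0 = 1 := by
    apply Subtype.ext
    ext i j
    fin_cases i <;> fin_cases j <;> simp [X]
  have hXn : ∀ (t : F) (n : ℕ), X t ^ n = X (n * t) := by
    intro t n
    induction n with
    | zero => simp [hX0]
    | succ n ih => rw [pow_succ, ih, hXX]; congr 1; push_cast; ring
  have hYX : ∀ t, Y * X t * Y⁻¹ = X (a ^ 2 * t) := by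
    intro t
    rw [mul_inv_eq_iff_eq_mul]
    apply Subtype.ext
    change !![(a : F), 0; 0, ((a⁻¹ : Fˣ) : F)] * !![1, t; 0, 1] = !![1, a ^ 2 * t; 0, 1] * !![(a : F), 0; 0, ((a⁻¹ : Fˣ) : F)]
    rw [Matrix.mul_fin_two, Matrix.mul_fin_two]
    have h1 : (a : F) * ((a⁻¹ : Fˣ) : F) = 1 := Units.mul_inv a
    ext i j
    fin_cases i <;> fin_cases j <;> simp
    field_simp
  have hYn : ∀ (n : ℕ) (t : F), Y ^ n * X t * (Y ^ n)⁻¹ = X (a ^ (2 * n) * t) := by
    intro n
    induction n with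
    | zero => intro t; simp
    | succ n ih =>
      intro t
      have h1 : Y ^ (n + 1) * X t * (Y ^ (n + 1))⁻¹ = Y * (Y ^ n * X t * (Y ^ n)⁻¹) * Y⁻¹ := by
        rw [pow_succ']
        group
      rw [h1, ih, hYX]
      congr 1
      ring
  -- equality modulo the centre
  have hinj : ∀ s t, (QuotientGroup.mk (X s) : Matrix.ProjectiveSpecialLinearGroup (Fin 2) F) = QuotientGroup.mk (X t) →
      s = t := by
    intro s t hst
    rw [QuotientGroup.eq, Matrix.SpecialLinearGroup.mem_center_iff] at hst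
    obtain ⟨c, -, hc⟩ := hst
    have h1 : (X s : Matrix (Fin 2) (Fin 2) F) * Matrix.scalar (Fin 2) c = X t := by
      rw [hc, ← Matrix.SpecialLinearGroup.coe_mul, mul_inv_cancel_left]
    have h2 : (X s : Matrix (Fin 2) (Fin 2) F) = !![1, s; 0, 1] := rfl
    have h3 : (X t : Matrix (Fin 2) (Fin 2) F) = !![1, t; 0, 1] := rfl
    rw [h2, h3] at h1
    have h4 := congrFun (congrFun h1 1) 1
    have h5 := congrFun (congrFun h1 0) 1
    simp [Matrix.mul_apply, Fin.sum_univ_two, Matrix.scalar_apply] at h4 h5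
    rw [h4] at h5
    simpa using h5
  have hchar : (l : F) = 0 := by
    rw [← hF]
    exact FiniteField.cast_card_eq_zero F
  set x₀ : S := Φ.symm (QuotientGroup.mk (X 1)) with hx₀
  set y₀ : S := Φ.symm (QuotientGroup.mk Y) with hy₀
  have hxo : orderOf x₀ = l := by
    apply orderOf_eq_prime
    · apply Φ.injective
      rw [map_pow, hx₀, MulEquiv.apply_symm_apply, ← QuotientGroup.mk_pow, hXn, mul_one, hchar, hX0, map_one]
      rfl
    · intro h1
      have h2 : (QuotientGroup.mk (X 1) : Matrix.ProjectiveSpecialLinearGroup (Fin 2) F) = QuotientGroup.mk (X 0) := by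
        rw [hX0]
        apply Φ.symm.injective
        rw [← hx₀, h1, QuotientGroup.mk_one, map_one]
      exact one_ne_zero (hinj _ _ h2)
  -- `a ^ 2` is a natural number
  obtain ⟨k, hk⟩ : ∃ k : ℕ, (k : F) = (a : F) ^ 2 := by
    have hchF : CharP F l := by
      obtain ⟨p, hp⟩ := CharP.exists F
      have hpp := CharP.char_is_prime F p
      have h1 : p ∣ l := (CharP.cast_eq_zero_iff F p l).1 hchar
      rwa [(Nat.prime_dvd_prime_iff_eq hpp hl).1 h1] at hp
    have hb : Function.Bijective (ZMod.castHom (dvd_refl l) F) := by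
      rw [Fintype.bijective_iff_injective_and_card]
      exact ⟨RingHom.injective _, by rw [ZMod.card, hF]⟩
    obtain ⟨z, hz⟩ := hb.2 ((a : F) ^ 2)
    refine ⟨z.val, ?_⟩
    rw [← hz, ← ZMod.natCast_zmod_val z, map_natCast, ZMod.natCast_zmod_val]
  have hc : y₀ * x₀ * y₀⁻¹ = x₀ ^ k := by
    apply Φ.injective
    rw [map_mul, map_mul, map_inv, map_pow, hx₀, hy₀, MulEquiv.apply_symm_apply, MulEquiv.apply_symm_apply,
      ← QuotientGroup.mk_pow, ← QuotientGroup.mk_inv, ← QuotientGroup.mk_mul, ← QuotientGroup.mk_mul, hXn, hYX, hk]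
  have hcomm := h.aut x₀ y₀ hxo (by rw [hc]; exact npow_mem_zpowers x₀ _)
  have h1 : y₀ ^ e * x₀ * (y₀ ^ e)⁻¹ = x₀ := by rw [hcomm.eq, mul_inv_cancel_right]
  have h2 := congrArg Φ h1
  rw [map_mul, map_mul, map_inv, map_pow, hx₀, hy₀, MulEquiv.apply_symm_apply, MulEquiv.apply_symm_apply,
      ← QuotientGroup.mk_pow, ← QuotientGroup.mk_inv, ← QuotientGroup.mk_mul, ← QuotientGroup.mk_mul, hYn] at h2
  have h3 := hinj _ _ h2
  rw [← hao]
  apply orderOf_dvd_of_pow_eq_one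
  apply Units.ext
  rw [Units.val_pow_eq_pow_val, Units.val_one, ← h3, mul_one]

end Cfsg.Agent.H427.Rg
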